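import Cfsg.Agent.H6.LR.P.Tab0

set_option autoImplicit false
set_option maxRecDepth 100000
set_option Elab.async false

namespace Cfsg.H6.LR.P

theorem p9 : allR (ptU img) 4032 448 = true := by decide +kernel

theorem p10 : allR (ptU img) 4480 448 = true := by decide +kernel

theorem p11 : allR (ptU img) 4928 112 = true := by decide +kernel

end Cfsg.H6.LR.P
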