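import Cfsg.Agent.H6.LR.P.Pres
import Cfsg.Agent.H6.LR.P.Chk0
import Cfsg.Agent.H6.LR.P.Chk1
import Cfsg.Agent.H6.LR.P.Chk2
import Cfsg.Agent.H6.LR.P.Chk3

set_option autoImplicit false
set_option maxRecDepth 100000
set_option Elab.async false

namespace Cfsg.H6.LR.P

theorem ptOK : PtOK img 5040 LS EQS := ptOK_of_chk fun p h1 h2 => by
  rw [← ptU_eq]
  exact (range_join (range_join (range_join (allR_range p0 (by norm_num : 0 + 448 = 448)) (range_join (allR_range p1 (by norm_num : 448 + 448 = 896)) (allR_range p2 (by norm_num : 896 + 448 = 1344)))) (range_join (allR_range p3 (by norm_num : 1344 + 448 = 1792)) (range_join (allR_range p4 (by norm_num : 1792 + 448 = 2240)) (allR_range p5 (by norm_num : 2240 + 448 = 2688))))) (range_join (range_join (allR_range p6 (by norm_num : 2688 + 448 = 3136)) (range_join (allR_range p7 (by norm_num : 3136 + 448 = 3584)) (allR_range p8 (by norm_num : 3584 + 448 = 4032)))) (range_join (allR_range p9 (by norm_num : 4032 + 448 = 4480)) (range_join (allR_range p10 (by norm_num : 4480 + 448 = 4928)) (allR_range p11 (by norm_num : 4928 + 112 = 5040))))))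 p h1 h2

theorem hrep : repOK 38 4601798223793757641967235317486930856385528678621748064675590268617106973086074753284964608 LS EQS D LR.P.RE = true := by decide +kernel

theorem rep : Good (evR img 5040 38) 4601798223793757641967235317486930856385528678621748064675590268617106973086074753284964608 ∧ Rels (evR img 5040 38) LR.P.RE ∧
    IsAct (MonoidHom.id _) (evR img 5040 38) img 5040 38 := rep_sound ptOK hrep


end Cfsg.H6.LR.P
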